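import Cfsg.Agent.H276.DStarTwo
import Cfsg.Agent.Lib.Cores

/-!
# The `D*`-theorem (Glauberman–Solomon)
-/

set_option autoImplicit false

open Subgroup
open scoped commutatorElement

namespace Cfsg.Agent.H276

variable {G : Type*} [Group G]

/-- The family in terms of subgroups of the ambient group. -/
theorem mem_family_subgroupOf {S A : Subgroup G} (hAS : A ≤ S) :
    A.subgroupOf S ∈ Cfsg.dStarFamily S ↔
      (∀ a ∈ A, ∀ b ∈ A, a * b = b * a) ∧
      ∀ x ∈ S, ⁅⁅A ⊔ zpowers x, A ⊔ zpowers x⁆, A ⊔ zpowers x⁆ = ⊥ → ∀ a ∈ A, a * x = x * a := by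
  have hmap : (A.subgroupOf S).map S.subtype = A := by
    rw [subgroupOf_map_subtype, inf_eq_left.mpr hAS]
  have hmap2 : ∀ x : S, (A.subgroupOf S ⊔ zpowers x).map S.subtype = A ⊔ zpowers (x : G) := by
    intro x
    rw [Subgroup.map_sup, hmap, MonoidHom.map_zpowers]; rfl
  have hmap3 : ∀ x : S, (⁅⁅A.subgroupOf S ⊔ zpowers x, A.subgroupOf S ⊔ zpowers x⁆,
      A.subgroupOf S ⊔ zpowers x⁆ = ⊥ ↔
      ⁅⁅A ⊔ zpowers (x : G), A ⊔ zpowers (x : G)⁆, A ⊔ zpowers (x : G)⁆ = ⊥) := by
    intro x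
    rw [← hmap2 x, ← map_commutator, ← map_commutator,
      Subgroup.map_eq_bot_iff_of_injective _ S.subtype_injective]
  constructor
  · rintro ⟨h1, h2⟩
    refine ⟨fun a ha b hb => ?_, fun x hx hcl a ha => ?_⟩
    · have := commS h1 (x := (⟨a, hAS ha⟩ : S)) (y := ⟨b, hAS hb⟩) ha hb
      exact congrArg Subtype.val this
    · have := h2 ⟨x, hx⟩ ((hmap3 ⟨x, hx⟩).mpr hcl) ⟨a, hAS ha⟩ ha
      exact congrArg Subtype.val this
  · rintro ⟨h1, h2⟩
    refine ⟨?_, ?_⟩
    · apply isMulCommutative_of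
      intro x hx y hy
      exact Subtype.ext (h1 x.1 hx y.1 hy)
    · intro x hx a ha
      exact Subtype.ext (h2 x.1 x.2 ((hmap3 x).mp hx) a.1 ha)

theorem dStarOf_le (S : Subgroup G) : Cfsg.dStarOf S ≤ S := by
  rintro _ ⟨x, _, rfl⟩
  exact x.2

theorem dStarOf_subgroupOf (S : Subgroup G) : (Cfsg.dStarOf S).subgroupOf S = Cfsg.dStar S := by
  rw [Cfsg.dStarOf, subgroupOf, comap_map_eq_self_of_injective S.subtype_injective]

theorem le_dStarOf {S A : Subgroup G} (hAS : A ≤ S) (hA : A.subgroupOf S ∈ Cfsg.dStarFamily S) :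
    A ≤ Cfsg.dStarOf S := by
  have h : A.subgroupOf S ≤ Cfsg.dStar S := le_sSup hA
  intro a ha
  exact ⟨⟨a, hAS ha⟩, h ha, rfl⟩

theorem dStarOf_conj (S : Subgroup G) (g : G) (hg : g ∈ normalizer (S : Set G)) :
    ∀ d ∈ Cfsg.dStarOf S, g * d * g⁻¹ ∈ Cfsg.dStarOf S := by
  -- the automorphism of S given by conjugation by g
  intro d hd
  obtain ⟨x, hx, rfl⟩ := hd
  let e : S ≃* S :=
    { toFun := fun s => ⟨g * s * g⁻¹, (mem_normalizer_iff.mp hg s).mp s.2⟩
      invFun := fun s => ⟨g⁻¹ * s * g, (mem_normalizer_iff''.mp hg s).mp s.2⟩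
      left_inv := fun s => by apply Subtype.ext; simp [mul_assoc]
      right_inv := fun s => by apply Subtype.ext; simp [mul_assoc]
      map_mul' := fun s t => by apply Subtype.ext; simp [mul_assoc] }
  have h := dStar_map e
  refine ⟨e x, ?_, rfl⟩
  rw [← h]
  exact ⟨x, hx, rfl⟩

/-- `A ⊔ ⟨y⟩` has class at most two if the commutators `⁅a, y⁆` are centralised by `A` and `y`. -/
theorem class_two_sup {A : Subgroup G} (hA : ∀ a ∈ A, ∀ b ∈ A, a * b = b * a) {y : G}
    (h : ∀ a ∈ A, (∀ b ∈ A, b * ⁅a, y⁆ = ⁅a, y⁆ * b) ∧ y * ⁅a, y⁆ = ⁅a, y⁆ * y) :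
    ⁅⁅A ⊔ zpowers y, A ⊔ zpowers y⁆, A ⊔ zpowers y⁆ = ⊥ := by
  have hH : A ⊔ zpowers y = closure ((A : Set G) ∪ {y}) := by
    rw [Subgroup.closure_union, closure_eq, zpowers_eq_closure]
  rw [hH, commutator_eq_bot_iff_le_centralizer]
  have hcen : ∀ a ∈ A, ⁅a, y⁆ ∈ centralizer (closure ((A : Set G) ∪ {y}) : Set G) := by
    intro a ha
    rw [centralizer_closure, mem_centralizer_iff]
    rintro x (hx | hx)
    · exact (h a ha).1 x hx
    · rw [Set.mem_singleton_iff] at hx; subst hx; exact (h a ha).2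
  apply commutator_closure_le_centralizer
  rintro x (hx | hx) z (hz | hz)
  · have : ⁅x, z⁆ = 1 := by
      rw [commutatorElement_eq_one_iff_mul_comm]; exact hA x hx z hz
    rw [this]; exact one_mem _
  · rw [Set.mem_singleton_iff] at hz; subst hz
    exact hcen x hx
  · rw [Set.mem_singleton_iff] at hx; subst hx
    rw [← commutatorElement_inv]; exact inv_mem (hcen z hz)
  · rw [Set.mem_singleton_iff] at hx hz; subst hx; subst hz
    rw [commutatorElement_self]; exact one_mem _

open Cfsg.Agent.Lib.Cores in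
/-- **The `D*`-theorem** (Glauberman–Solomon). -/
theorem dStarOf_normal [Finite G] {p : ℕ} [Fact p.Prime]
    (hc : Subgroup.centralizer (Cfsg.pCore p G : Set G) ≤ Cfsg.pCore p G)
    (hst : ∀ (P : Subgroup G) [P.Normal], IsPGroup p P → Cfsg.IsPStableOn p P) (S : Sylow p G) :
    (Cfsg.dStarOf (S : Subgroup G)).Normal := by
  classical
  set D := Cfsg.dStarOf (S : Subgroup G) with hD
  have hSnil : Group.IsNilpotent (S : Subgroup G) := S.isPGroup'.isNilpotent
  have hDS : D ≤ (S : Subgroup G) := dStarOf_le _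
  have hDfam : D.subgroupOf (S : Subgroup G) ∈ Cfsg.dStarFamily (S : Subgroup G) := by
    rw [hD, dStarOf_subgroupOf]; exact dStar_mem_family
  obtain ⟨hD1, hD2⟩ := (mem_family_subgroupOf hDS).mp hDfam
  have hOn : (Cfsg.pCore p G).Normal := pCore_normal p G
  have hOp : IsPGroup p (Cfsg.pCore p G) := pCore_isPGroup p
  have hOS : Cfsg.pCore p G ≤ (S : Subgroup G) := pCore_le_sylow S
  -- (1) D ≤ O_p(G)
  have hDO : D ≤ Cfsg.pCore p G := by
    intro d hd
    have hzD : zpowers d ≤ D := by rwa [zpowers_le]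
    have hOD : ⁅Cfsg.pCore p G, zpowers d⁆ ≤ D := by
      rw [commutator_le]
      intro x hx y hy
      have h1 := dStarOf_conj (S : Subgroup G) x (le_normalizer (hOS hx)) y (hzD hy)
      rw [commutatorElement_def]
      exact mul_mem h1 (inv_mem (hzD hy))
    have hq : ⁅⁅Cfsg.pCore p G, zpowers d⁆, zpowers d⁆ = ⊥ := by
      rw [← le_bot_iff, commutator_le]
      intro x hx y hy
      rw [mem_bot, commutatorElement_eq_one_iff_mul_comm]
      exact hD1 x (hOD hx) y (hzD hy)
    have hmem := hst (Cfsg.pCore p G) hOp d hq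
    have hp2 : IsPGroup p ((Cfsg.pCore p (G ⧸ centralizer (Cfsg.pCore p G : Set G))).comap
        (QuotientGroup.mk' (centralizer (Cfsg.pCore p G : Set G)))) := by
      apply IsPGroup.comap_of_ker_isPGroup (pCore_isPGroup p)
      rw [QuotientGroup.ker_mk']
      exact hOp.to_le hc
    exact le_pCore ((pCore_normal p _).comap _) hp2 hmem
  -- (2) the normal closure V of D
  set V := normalClosure (D : Set G) with hV
  have hDV : D ≤ V := subset_normalClosure
  have hVn : V.Normal := normalClosure_normal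
  have hVO : V ≤ Cfsg.pCore p G := normalClosure_le_normal hDO
  have hVp : IsPGroup p V := hOp.to_le hVO
  have hVc : ∀ a ∈ V, ∀ b ∈ V, a * b = b * a := by
    have hOnil : Group.IsNilpotent (Cfsg.pCore p G) := hOp.isNilpotent
    have hWn : (Cfsg.dStarOf (Cfsg.pCore p G)).Normal := by
      refine ⟨fun n hn g => dStarOf_conj _ g ?_ n hn⟩
      rw [normalizer_eq_top]; exact mem_top g
    have hDW : D ≤ Cfsg.dStarOf (Cfsg.pCore p G) := by
      apply le_dStarOf hDO
      rw [mem_family_subgroupOf hDO]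
      exact ⟨hD1, fun x hx => hD2 x (hOS hx)⟩
    have hVW : V ≤ Cfsg.dStarOf (Cfsg.pCore p G) := normalClosure_le_normal hDW
    have hWfam : (Cfsg.dStarOf (Cfsg.pCore p G)).subgroupOf (Cfsg.pCore p G) ∈
        Cfsg.dStarFamily (Cfsg.pCore p G) := by
      rw [dStarOf_subgroupOf]; exact dStar_mem_family
    have h := (mem_family_subgroupOf (dStarOf_le _)).mp hWfam
    exact fun a ha b hb => h.1 a (hVW ha) b (hVW hb)
  -- (3) elements acting quadratically on V centralise D
  have hkey : ∀ x : G, ⁅⁅V, zpowers x⁆, zpowers x⁆ = ⊥ → ∀ d ∈ D, d * x = x * d := by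
    intro x hx
    have hmem := hst V hVp x hx
    have hmap : (QuotientGroup.mk x : G ⧸ centralizer (V : Set G)) ∈
        (S : Subgroup G).map (QuotientGroup.mk' (centralizer (V : Set G))) := by
      have h := pCore_le_sylow (S.mapSurjective
        (QuotientGroup.mk'_surjective (centralizer (V : Set G)))) hmem
      exact h
    obtain ⟨y, hy, hyx⟩ := hmap
    have hcx : y⁻¹ * x ∈ centralizer (V : Set G) := QuotientGroup.eq.mp hyx
    -- y acts on V as x
    have hact : ∀ v ∈ V, y * v * y⁻¹ = x * v * x⁻¹ := by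
      intro v hv
      have h := mem_centralizer_iff.mp hcx v hv
      have : x * v * x⁻¹ = y * ((y⁻¹ * x) * v) * x⁻¹ := by group
      rw [this, ← h]; group
    have hcomm : ∀ v ∈ V, ⁅v, y⁆ = ⁅v, x⁆ := by
      intro v hv
      have h := hact v⁻¹ (inv_mem hv)
      rw [commutatorElement_def, commutatorElement_def]
      calc v * y * v⁻¹ * y⁻¹ = v * (y * v⁻¹ * y⁻¹) := by group
        _ = v * (x * v⁻¹ * x⁻¹) := by rw [h]
        _ = _ := by group
    have hxV : ∀ v ∈ V, ⁅v, x⁆ ∈ V := by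
      intro v hv
      rw [commutatorElement_def]
      have : v * x * v⁻¹ * x⁻¹ = v * (x * v⁻¹ * x⁻¹) := by group
      rw [this]
      exact mul_mem hv (hVn.conj_mem _ (inv_mem hv) x)
    have hxx : ∀ v ∈ V, x * ⁅v, x⁆ = ⁅v, x⁆ * x := by
      intro v hv
      have h1 : ⁅v, x⁆ ∈ ⁅V, zpowers x⁆ := commutator_mem_commutator hv (mem_zpowers x)
      have h2 := (commutator_eq_bot_iff_le_centralizer.mp hx) h1
      exact mem_centralizer_iff.mp h2 x (mem_zpowers x)
    have hyy : ∀ v ∈ V, y * ⁅v, y⁆ = ⁅v, y⁆ * y := by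
      intro v hv
      rw [hcomm v hv]
      have h1 := hact _ (hxV v hv)
      rw [hxx v hv, mul_inv_cancel_right] at h1
      calc y * ⁅v, x⁆ = (y * ⁅v, x⁆ * y⁻¹) * y := by group
        _ = ⁅v, x⁆ * y := by rw [h1]
    have hcl : ⁅⁅D ⊔ zpowers y, D ⊔ zpowers y⁆, D ⊔ zpowers y⁆ = ⊥ := by
      apply class_two_sup hD1
      intro a ha
      refine ⟨fun b hb => ?_, hyy a (hDV ha)⟩
      rw [hcomm a (hDV ha)]
      exact hVc b (hDV hb) _ (hxV a (hDV ha))
    intro d hd
    have h1 := hD2 y hy hcl d hd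
    have h2 := mem_centralizer_iff.mp hcx d (hDV hd)
    calc d * x = (d * y) * (y⁻¹ * x) := by group
      _ = (y * d) * (y⁻¹ * x) := by rw [h1]
      _ = y * (d * (y⁻¹ * x)) := by group
      _ = y * ((y⁻¹ * x) * d) := by rw [h2]
      _ = x * d := by group
  -- (4) V is in the family of S
  have hVS : V ≤ (S : Subgroup G) := hVO.trans hOS
  have hVD : V ≤ D := by
    apply le_dStarOf hVS
    rw [mem_family_subgroupOf hVS]
    refine ⟨hVc, fun x _ hcl => ?_⟩
    have hq : ⁅⁅V, zpowers x⁆, zpowers x⁆ = ⊥ := by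
      rw [← le_bot_iff, ← hcl]
      exact commutator_mono (commutator_mono le_sup_left le_sup_right) le_sup_right
    have hle : V ≤ centralizer {x} := by
      rw [hV, normalClosure, closure_le]
      intro z hz
      obtain ⟨d, hd, hdz⟩ := Group.mem_conjugatesOfSet_iff.mp hz
      obtain ⟨g, hg⟩ := isConj_iff.mp hdz
      rw [SetLike.mem_coe, mem_centralizer_iff]
      intro w hw
      rw [Set.mem_singleton_iff] at hw; subst hw
      have hq' : ⁅⁅V, zpowers (g⁻¹ * w * g)⁆, zpowers (g⁻¹ * w * g)⁆ = ⊥ := by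
        have h1 : zpowers (g⁻¹ * w * g) = (zpowers w).map (MulAut.conj g⁻¹).toMonoidHom := by
          rw [MonoidHom.map_zpowers]; simp
        have h2 : V = V.map (MulAut.conj g⁻¹).toMonoidHom := by
          symm
          apply le_antisymm
          · rintro _ ⟨v, hv, rfl⟩
            exact hVn.conj_mem v hv g⁻¹
          · intro v hv
            refine ⟨g * v * g⁻¹, hVn.conj_mem v hv g, ?_⟩
            simp [mul_assoc]
        rw [h1, h2, ← map_commutator, ← map_commutator, hq, Subgroup.map_bot]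
      have h := hkey _ hq' d hd
      rw [← hg]
      calc w * (g * d * g⁻¹) = g * ((g⁻¹ * w * g) * d) * g⁻¹ := by group
        _ = g * (d * (g⁻¹ * w * g)) * g⁻¹ := by rw [h]
        _ = _ := by group
    intro a ha
    exact (mem_centralizer_iff.mp (hle ha) x rfl).symm
  have : D = V := le_antisymm hDV hVD
  rw [this]; exact hVn

end Cfsg.Agent.H276
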